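import Groth.Prelude.Def_ModelsG
import Groth.Agent.Dix.VertGeom

/-!
# Vertical prime divisors and the component list of the closed fibre

* `exists_iso_of_ker_eq`: closed immersions with the same kernel are isomorphic over the target.
* `isExcCurve_of_ker_eq`: being an exceptional curve of the first kind only depends on the closed subscheme.
* `exists_ker_eq`: every vertical prime divisor is, as a closed subscheme, one of the listed components of
  the closed fibre.
-/

set_option autoImplicit false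
universe u

open CategoryTheory CategoryTheory.Limits AlgebraicGeometry

namespace Groth.Agent.Models.H70.VertGlue

/-- Closed immersions with the same kernel are isomorphic over the target. -/
lemma exists_iso_of_ker_eq {Z Z' X : Scheme.{u}} (f : Z ⟶ X) (g : Z' ⟶ X) [IsClosedImmersion f]
    [IsClosedImmersion g] (h : f.ker = g.ker) : ∃ e : Z ≅ Z', e.hom ≫ g = f := by
  have := IsClosedImmersion.isIso_lift g f h.symm
  exact ⟨asIso (IsClosedImmersion.lift g f h.symm.le), by simp⟩

/-- Being an exceptional curve of the first kind is invariant under isomorphism of the source. -/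
lemma isExcCurve_of_iso {E E' Y : Scheme.{u}} (ι : E ⟶ Y) (ι' : E' ⟶ Y) (a : E ≅ E')
    (ha : a.hom ≫ ι' = ι) (h : Models.IsExcCurve ι) : Models.IsExcCurve ι' := by
  subst ha
  obtain ⟨hE, k, hk, e, ⟨φ⟩⟩ := h
  have hker : (a.hom ≫ ι').ker = ι'.ker := by
    rw [← Scheme.IdealSheafData.map_ker, Scheme.Hom.ker_eq_bot_of_isIso a.hom,
      Scheme.IdealSheafData.map_bot]
  rw [hker] at hE
  refine ⟨hE, k, hk, e ≪≫ a, ?_⟩
  rw [hker] at φ
  have h2 : e.hom ≫ a.hom ≫ ι' = (e ≪≫ a).hom ≫ ι' := by simp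
  rw [h2] at φ
  exact ⟨φ⟩

/-- Being an exceptional curve of the first kind only depends on the closed subscheme. -/
lemma isExcCurve_of_ker_eq {E E' Y : Scheme.{u}} (ι : E ⟶ Y) (ι' : E' ⟶ Y) [IsClosedImmersion ι]
    [IsClosedImmersion ι'] (hk : ι.ker = ι'.ker) (h : Models.IsExcCurve ι) : Models.IsExcCurve ι' := by
  obtain ⟨a, ha⟩ := exists_iso_of_ker_eq ι ι' hk
  exact isExcCurve_of_iso ι ι' a ha h

section

variable {R : Type u} [CommRing R] [IsDomain R] [IsDiscreteValuationRing R]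
  {X : Over (Spec (CommRingCat.of R))} {n : ℕ} {Γ : Fin n → ArSurf.VertComp R X}

/-- The generic point of a vertical prime divisor lies in the closed fibre. -/
lemma genPtOf_mem_specialFibreSet (Δ : ArSurf.VertComp R X) :
    Models.genPtOf R X Δ ∈ Models.specialFibreSet R X := by
  change X.hom.base (Δ.ι.base (genericPoint Δ.curve.left)) = IsLocalRing.closedPoint R
  have h1 : X.hom.base (Δ.ι.base (genericPoint Δ.curve.left)) =
      (Δ.ι ≫ X.hom).base (genericPoint Δ.curve.left) := rfl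
  rw [h1, Δ.w]
  change (Spec.map (CommRingCat.ofHom (IsLocalRing.residue R))).base
    (Δ.curve.hom.base (genericPoint Δ.curve.left)) = _
  have h2 : Δ.curve.hom.base (genericPoint Δ.curve.left) =
      (IsLocalRing.closedPoint (IsLocalRing.ResidueField R) :
      PrimeSpectrum (IsLocalRing.ResidueField R)) :=
    Subsingleton.elim (α := PrimeSpectrum (IsLocalRing.ResidueField R)) _ _
  rw [h2]
  exact IsLocalRing.comap_closedPoint (IsLocalRing.residue R)

/-- Every point of the closed fibre lies on a listed component. -/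
lemma exists_mem_range (hΓ : Models.IsComponentList R X Γ) (x : X.left)
    (hx : x ∈ Models.specialFibreSet R X) : ∃ i, x ∈ Set.range (Γ i).ι := by
  obtain ⟨Z, hxZ, hZ⟩ := zorn_subset_nonempty
    {t : Set X.left | IsIrreducible t ∧ t ⊆ Models.specialFibreSet R X} (by
      intro c hc hcc hne
      refine ⟨⋃₀ c, ⟨⟨?_, ?_⟩, ?_⟩, fun s hs => Set.subset_sUnion_of_mem hs⟩
      · obtain ⟨s, hs⟩ := hne
        obtain ⟨x, hx⟩ := (hc hs).1.nonempty
        exact ⟨x, s, hs, hx⟩
      · intro u v hu hv ⟨y, hy, hyu⟩ ⟨x, hx, hxv⟩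
        obtain ⟨p, hpc, hyp⟩ := Set.mem_sUnion.1 hy
        obtain ⟨q, hqc, hxq⟩ := Set.mem_sUnion.1 hx
        rcases hcc.total hpc hqc with hpq | hqp
        · obtain ⟨z, hz, hz'⟩ := (hc hqc).1.2 u v hu hv ⟨y, hpq hyp, hyu⟩ ⟨x, hxq, hxv⟩
          exact ⟨z, ⟨q, hqc, hz⟩, hz'⟩
        · obtain ⟨z, hz, hz'⟩ := (hc hpc).1.2 u v hu hv ⟨y, hyp, hyu⟩ ⟨x, hqp hxq, hxv⟩
          exact ⟨z, ⟨p, hpc, hz⟩, hz'⟩
      · exact Set.sUnion_subset fun s hs => (hc hs).2) {x}
    ⟨isIrreducible_singleton, Set.singleton_subset_iff.2 hx⟩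
  have h1 : Z ∈ Models.fibreComponents R X := hZ
  rw [← hΓ.2] at h1
  obtain ⟨i, hi⟩ := h1
  refine ⟨i, ?_⟩
  change x ∈ (fun i => Set.range ((Γ i).ι.base : (Γ i).curve.left → X.left)) i
  rw [hi]
  exact hxZ rfl

/-- Every vertical prime divisor is one of the listed components, as a closed subscheme. -/
theorem exists_ker_eq (hΓ : Models.IsComponentList R X Γ) (Δ : ArSurf.VertComp R X) :
    ∃ i, Δ.ι.ker = (Γ i).ι.ker := by
  obtain ⟨i, hi⟩ := exists_mem_range hΓ _ (genPtOf_mem_specialFibreSet Δ)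
  refine ⟨i, Dix.VertGeom.ker_eq_of_mem Δ.ι (Γ i).ι Δ.dim_eq (Γ i).dim_eq ?_⟩
  rw [Dix.VertGeom.mem_support_ker_iff]
  exact hi

/-- There is an exceptional vertical prime divisor if and only if one of the listed components is one. -/
theorem exists_isExcCurve_iff (hΓ : Models.IsComponentList R X Γ) :
    (∃ Δ : ArSurf.VertComp R X, Models.IsExcCurve Δ.ι) ↔ ∃ i, Models.IsExcCurve (Γ i).ι := by
  constructor
  · rintro ⟨Δ, hΔ⟩
    obtain ⟨i, hi⟩ := exists_ker_eq hΓ Δ
    exact ⟨i, isExcCurve_of_ker_eq _ _ hi hΔ⟩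
  · rintro ⟨i, hi⟩
    exact ⟨Γ i, hi⟩

end

end Groth.Agent.Models.H70.VertGlue
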